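import Cfsg.Agent.Lib.Glauberman.FusionNPC

/-! For odd primes a noninner system has a constrained noninner subsystem over the same group. (helper6) -/

set_option autoImplicit false
set_option linter.unusedSectionVars false

namespace CfsgLib.Glauberman

open Cfsg Cfsg.FusionSystem CfsgLib.Fusion

universe u

/-- All saturated constrained subsystems on the whole group have `p`-group automizers. -/
def SubsPAut (p : ℕ) {Ω : Type u} [Group Ω] {S : Subgroup Ω} (F : FusionSystem S) : Prop :=
  ∀ E : FusionSystem S, E.IsSubsystemOf F → E.IsConstrained p → PAut E p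

/-- The Glauberman-Thompson scheme, extended by subsystems. -/
def subCriterion (p : ℕ) [Fact p.Prime] (hp2 : p ≠ 2) : Criterion.{u} p where
  Free _ := True
  Hyp F := SubsPAut p F ∨ (gtCriterion p hp2).Hyp F
  free_normalizer _ _ _ _ _ _ _ _ := trivial
  free_factor := by intros; trivial
  hyp_mono {Ω} _ {S} _ F hS hF h {T} hT E hE := by
    rcases h with h | h
    · subst hT
      exact Or.inl fun E' hE' hc => h E' (fun P φ hφ => hE P (hE' P hφ)) hc
    · exact Or.inr ((gtCriterion p hp2).hyp_mono F hS hF h hT E hE)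
  hyp_local {Ω} _ {S} _ F hS hF _ _ Q hQ hne hlt hloc := Or.inr (by
    haveI : Finite ↥(normalizerIn S Q) := finite_of_le inf_le_left
    have hp : IsPGroup p ↥(normalizerIn S Q) := hS.to_le inf_le_left
    have hM : normalizerIn S Q ≠ ⊥ := fun h =>
      hne (le_bot_iff.mp (h ▸ le_inf hQ.1 Subgroup.le_normalizer))
    have hd := familyData_maxAb (F := normalizerSystem F Q hQ.1) hp hp2 (Or.inl rfl) (stronglyClosed_self _)
    refine ⟨_, _, hd, hd.iInf_le, hloc _ hd.iInf_le (iInf_maxAb_ne_bot hp hM) ?_⟩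
    exact inf_le_right.trans (le_normalizer_of_characteristic hd.iInf_le (characteristic_zMeet _ 0)))
  hyp_factor {Ω} _ {S} _ F hS hF _ _ _ _ {Ω'} _ {S'} θ E hE hloc := by
    haveI := finite_factor hE
    rcases eq_or_ne S' ⊥ with h | h
    · have hE0 : PAut E p := pAut_of_bot h
      have hd := familyData_maxAb (F := E) (isPGroup_factor hS hE) hp2 (Or.inl rfl) (stronglyClosed_self _)
      exact Or.inl (Or.inr ⟨_, _, hd, hd.iInf_le, pAut_mono inf_le_left (fun P φ hφ => hφ.1) hE0⟩)
    · have hp := isPGroup_factor hS hE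
      have hd := familyData_maxAb (F := E) hp hp2 (Or.inl rfl) (stronglyClosed_self _)
      exact Or.inl (Or.inr ⟨_, _, hd, hd.iInf_le, hloc _ hd.iInf_le (iInf_maxAb_ne_bot hp h) hd.le_normalizer⟩)
  constrained {Ω} _ {S} _ F hS hF hfree h hcon hU hb := by
    rcases h with h | h
    · exact h F (fun _ _ hφ => hφ) hcon
    · exact (gtCriterion p hp2).constrained F hS hF hfree h hcon hU
        fun Q hQ hne hQp _ _ _ θ E hE hEh => hb Q hQ hne hQp θ E hE (Or.inr hEh)

/-- **A noninner system contains a constrained noninner subsystem.** -/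
theorem exists_constrained_sub {Ω : Type u} [Group Ω] {S : Subgroup Ω} [Finite ↥S] {p : ℕ} [Fact p.Prime]
    (hp2 : p ≠ 2) (hS : IsPGroup p ↥S) (F : FusionSystem S) (hF : F.IsSaturated p)
    (hne : ¬ ∀ P : Subgroup Ω, F.Hom P = (innerFusionSystem S).Hom P) :
    ∃ E : FusionSystem S, E.IsSubsystemOf F ∧ E.IsConstrained p ∧
      ¬ ∀ P : Subgroup Ω, E.Hom P = (innerFusionSystem S).Hom P := by
  by_contra h
  refine hne ((pAut_iff_inner hS hF).mp ((subCriterion p hp2).pAut _ F rfl hS hF trivial (Or.inl fun E hE hc => ?_)))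
  refine (pAut_iff_inner hS hc.1).mpr ?_
  by_contra hE'
  exact h ⟨E, hE, hc, hE'⟩

end CfsgLib.Glauberman
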