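import Cfsg.Agent.Lib.Fusion.Nilpotency

/-! Constrained subsystems, also for the prime two in the absence of sections `S₄`. (helper6) -/

set_option autoImplicit false
set_option linter.unusedSectionVars false

namespace CfsgLib.Glauberman

open Cfsg Cfsg.FusionSystem CfsgLib.Fusion CfsgLib.ThompsonNPC

universe u

/-- All constrained subsystems on the whole group have `p`-group automizers. -/
def AllSubsPAut (p : ℕ) {Ω : Type u} [Group Ω] {S : Subgroup Ω} (F : FusionSystem S) : Prop :=
  ∀ E : FusionSystem S, E.IsSubsystemOf F → E.IsConstrained p → PAut E p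

/-- Thompson's scheme, extended by subsystems. -/
def thompsonSubCriterion (p : ℕ) [Fact p.Prime] : Criterion.{u} p where
  Free F := p ≠ 2 ∨ F.IsSectionFree p (Equiv.Perm (Fin 4))
  Hyp F := AllSubsPAut p F ∨ (thompsonCriterion p).Hyp F
  free_normalizer F hS hF h Q hQ N hN := free_normalizer' hS hF h hQ N hN
  free_factor F hS hF h Q hQ _ _ _ θ E hE := h.imp_right fun h => sectionFree_factor p hS hF hQ h hE
  hyp_mono {Ω} _ {S} _ F hS hF h {T} hT E hE := by
    rcases h with h | h
    · subst hT
      exact Or.inl fun E' hE' hc => h E' (fun P φ hφ => hE P (hE' P hφ)) hc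
    · exact Or.inr ((thompsonCriterion p).hyp_mono F hS hF h hT E hE)
  hyp_local {Ω} _ {S} _ F hS hF _ _ Q hQ hne hlt hloc := Or.inr (by
    haveI : Finite ↥(normalizerIn S Q) := finite_of_le inf_le_left
    have hp : IsPGroup p ↥(normalizerIn S Q) := hS.to_le inf_le_left
    have hM : normalizerIn S Q ≠ ⊥ := fun h =>
      hne (le_bot_iff.mp (h ▸ le_inf hQ.1 Subgroup.le_normalizer))
    refine ⟨pAut_centralizer _ (hloc _ (Z_le _) (Z_ne_bot' hp hM) ?_), hloc _ (J_le 0 _) (J_ne_bot' hp hM) ?_⟩
    · exact inf_le_right.trans (le_normalizer_of_characteristic (Z_le _) (Z_characteristic _))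
    · exact inf_le_right.trans (le_normalizer_of_characteristic (J_le 0 _) (J_characteristic _)))
  hyp_factor {Ω} _ {S} _ F hS hF _ _ _ _ {Ω'} _ {S'} θ E hE hloc := by
    haveI := finite_factor hE
    refine Or.inl (Or.inr ?_)
    rcases eq_or_ne S' ⊥ with h | h
    · have hE0 : PAut E p := pAut_of_bot h
      refine ⟨pAut_mono inf_le_left (fun P φ hφ => hφ.1) hE0, pAut_mono inf_le_left (fun P φ hφ => hφ.1) hE0⟩
    · have hp := isPGroup_factor hS hE
      refine ⟨pAut_centralizer _ (hloc _ (Z_le _) (Z_ne_bot' hp h) ?_), hloc _ (J_le 0 _) (J_ne_bot' hp h) ?_⟩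
      · exact Subgroup.le_normalizer.trans (le_normalizer_of_characteristic (Z_le _) (Z_characteristic _))
      · exact Subgroup.le_normalizer.trans (le_normalizer_of_characteristic (J_le 0 _) (J_characteristic _))
  constrained {Ω} _ {S} _ F hS hF hfree h hcon _ _ := by
    rcases h with h | h
    · exact h F (fun _ _ hφ => hφ) hcon
    · exact pAut_constrained hS hcon hfree h.1 h.2

/-- A noninner system contains a constrained noninner subsystem (odd primes, or no sections `S₄`). -/
theorem exists_constrained_sub' {Ω : Type u} [Group Ω] {S : Subgroup Ω} [Finite ↥S] {p : ℕ} [Fact p.Prime]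
    (hS : IsPGroup p ↥S) (F : FusionSystem S) (hF : F.IsSaturated p)
    (hp : p ≠ 2 ∨ F.IsSectionFree p (Equiv.Perm (Fin 4)))
    (hne : ¬ ∀ P : Subgroup Ω, F.Hom P = (innerFusionSystem S).Hom P) :
    ∃ E : FusionSystem S, E.IsSubsystemOf F ∧ E.IsConstrained p ∧
      ¬ ∀ P : Subgroup Ω, E.Hom P = (innerFusionSystem S).Hom P := by
  by_contra h
  refine hne ((pAut_iff_inner hS hF).mp ((thompsonSubCriterion p).pAut _ F rfl hS hF hp (Or.inl fun E hE hc => ?_)))
  refine (pAut_iff_inner hS hc.1).mpr ?_
  by_contra hE'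
  exact h ⟨E, hE, hc, hE'⟩

end CfsgLib.Glauberman
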