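import Cfsg.Agent.Lib.Glauberman.JFunctor

/-! Fusion in constrained groups from `C(℧¹ Z(P))` and `N(J(P))`. (helper6) -/

set_option autoImplicit false
set_option linter.unusedSectionVars false
set_option linter.style.haveILetI false

namespace CfsgLib.Glauberman

open Cfsg CfsgLib.ThompsonNPC CfsgLib.Fusion
open scoped commutatorElement

universe u

variable {p : ℕ} [Fact p.Prime]

/-- The conjugate of `R` by `g`. -/
abbrev cmap {G : Type*} [Group G] (g : G) (R : Subgroup G) : Subgroup G := R.map (MulAut.conj g).toMonoidHom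

theorem mem_cmap {G : Type*} [Group G] {g x : G} {R : Subgroup G} : x ∈ cmap g R ↔ ∃ r ∈ R, g * r * g⁻¹ = x := Iff.rfl

/-- **Fusion induction** in a constrained group. -/
theorem fusion_induction : ∀ (n : ℕ) (G : Type u) [Group G] [Finite G], Nat.card G = n → ∀ (P : Sylow p G),
    Subgroup.centralizer ((Cfsg.pCore p G : Subgroup G) : Set G) ≤ Cfsg.pCore p G →
    ∀ (M : Subgroup G → G → Prop),
      (∀ R g h, R ≤ (P : Subgroup G) → cmap g R ≤ (P : Subgroup G) → cmap h (cmap g R) ≤ (P : Subgroup G) →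
        M R g → M (cmap g R) h → M R (h * g)) →
      (∀ R g, R ≤ (P : Subgroup G) → cmap g R ≤ (P : Subgroup G) →
        (∀ x ∈ (P : Subgroup G), (∀ s ∈ (P : Subgroup G), s * x = x * s) → g * x ^ p = x ^ p * g) → M R g) →
      (∀ R g, R ≤ (P : Subgroup G) → cmap g R ≤ (P : Subgroup G) →
        g ∈ Subgroup.normalizer (J 0 (P : Subgroup G) : Set G) → M R g) →
      ∀ R g, R ≤ (P : Subgroup G) → cmap g R ≤ (P : Subgroup G) → M R g := by
  intro n
  induction n using Nat.strong_induction_on with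
  | _ n ih =>
  intro G _ _ hn P hc M hcomp hcent hnorm R g hR hgR
  by_cases hJ : (J 0 (P : Subgroup G)).Normal
  · exact hnorm R g hR hgR (by rw [Subgroup.normalizer_eq_top_iff.mpr hJ]; exact Subgroup.mem_top _)
  obtain ⟨g₀, hg₀P, hg₀Q, hquad⟩ := exists_quadratic_of_not_normal P hJ
  set Q := Cfsg.pCore p G
  haveI hQn : Q.Normal := Cfsg.pCore_normal p G
  have hQP : Q ≤ (P : Subgroup G) := CfsgLib.Core.pCore_le_sylow P
  set V := (Subgroup.center ↥Q).map Q.subtype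
  have hVQ : V ≤ Q := Subgroup.map_subtype_le _
  have hVc : ∀ v ∈ V, ∀ q ∈ Q, q * v = v * q := by
    rintro _ ⟨v, hv, rfl⟩ q hq
    exact congrArg Subtype.val (Subgroup.mem_center_iff.mp hv ⟨q, hq⟩)
  have hxV : ∀ x ∈ (P : Subgroup G), (∀ s ∈ (P : Subgroup G), s * x = x * s) → x ∈ V := fun x _ hx => by
    have hxQ : x ∈ Q := hc (Subgroup.mem_centralizer_iff.mpr fun q hq => hx q (hQP hq))
    exact ⟨⟨x, hxQ⟩, Subgroup.mem_center_iff.mpr fun q => Subtype.ext (hx q (hQP q.2)), rfl⟩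
  haveI hVn : V.Normal := ConjAct.normal_of_characteristic_of_normal (H := Q) (K := Subgroup.center ↥Q)
  obtain ⟨h, hhg, hhQ, hhp⟩ : ∃ h ∈ Subgroup.zpowers g₀, h ∉ Q ∧ h ^ p ∈ Q := by
    classical
    obtain ⟨k, hk⟩ := P.2 ⟨g₀, hg₀P⟩
    have hex : ∃ j, g₀ ^ p ^ j ∈ Q := ⟨k, by rw [show g₀ ^ p ^ k = 1 from congrArg Subtype.val hk]; exact one_mem _⟩
    obtain ⟨j, hj⟩ : ∃ j, Nat.find hex = j + 1 := by
      refine ⟨Nat.find hex - 1, ?_⟩
      have h0 : Nat.find hex ≠ 0 := fun h0 => hg₀Q (by simpa [h0] using Nat.find_spec hex)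
      omega
    refine ⟨g₀ ^ p ^ j, Subgroup.pow_mem _ (Subgroup.mem_zpowers g₀) _, Nat.find_min hex (by omega), ?_⟩
    rw [← pow_mul, ← pow_succ, ← hj]
    exact Nat.find_spec hex
  have hfix : ∀ v ∈ V, h * v ^ p * h⁻¹ = v ^ p := by
    intro v hv
    have hin : ⁅h, v⁆ ∈ V := by
      rw [commutatorElement_def]; exact mul_mem (hVn.conj_mem v hv h) (inv_mem hv)
    refine fix_pow (hVc v hv _ hhp) ?_ (hVc _ hin v (hVQ hv))
    have h1 : ⁅⁅v, h⁆, h⁆ = 1 := Subgroup.mem_bot.mp (hquad ▸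
      Subgroup.commutator_mem_commutator (Subgroup.commutator_mem_commutator hv hhg) hhg)
    have h2 : h * ⁅v, h⁆ = ⁅v, h⁆ * h := (commutatorElement_eq_one_iff_mul_comm.mp h1).symm
    rw [← commutatorElement_inv v h]
    exact ((show Commute h ⁅v, h⁆ from h2).inv_right).eq
  set Y := Subgroup.normalClosure ({h} : Set G)
  haveI hYn : Y.Normal := Subgroup.normalClosure_normal
  have hYfix : ∀ y ∈ Y, ∀ v ∈ V, y * v ^ p = v ^ p * y := by
    intro y hy v hv
    induction hy using Subgroup.closure_induction with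
    | mem x hx =>
      obtain ⟨a, ha, hax⟩ := Group.mem_conjugatesOfSet_iff.mp hx
      obtain ⟨u, rfl⟩ := isConj_iff.mp hax
      rw [Set.mem_singleton_iff.mp ha]
      have h1 := mul_inv_eq_iff_eq_mul.mp (hfix _ (hVn.conj_mem v hv u⁻¹))
      rw [conj_pow] at h1
      calc u * h * u⁻¹ * v ^ p = u * (h * (u⁻¹ * v ^ p * u⁻¹⁻¹)) * u⁻¹ := by group
        _ = u * (u⁻¹ * v ^ p * u⁻¹⁻¹ * h) * u⁻¹ := by rw [h1]
        _ = _ := by group
    | one => simp
    | mul a b _ _ ha hb => exact ((show Commute a (v ^ p) from ha).mul_left hb).eq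
    | inv a _ ha => exact ((show Commute a (v ^ p) from ha).inv_left).eq
  have hhP : h ∈ (P : Subgroup G) := Subgroup.zpowers_le.mpr hg₀P hhg
  set R₀ := (P : Subgroup G) ⊓ Y
  set N := Subgroup.normalizer (R₀ : Set G)
  have hidx : ¬ p ∣ R₀.relIndex Y :=
    sylow_inf_normal (H := ⊤) (by rw [Subgroup.relIndex_top_right]; exact P.not_dvd_index) le_top le_top
      (by rw [Subgroup.normalizer_eq_top_iff.mpr inferInstance])
  let RY : Sylow p ↥Y := ((P.2.to_le inf_le_left : IsPGroup p ↥R₀).comap_subtype).toSylow hidx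
  have hfr : Subgroup.normalizer (((RY : Subgroup ↥Y).map Y.subtype : Subgroup G) : Set G) ⊔ Y = ⊤ :=
    Sylow.normalizer_sup_eq_top RY
  rw [show (RY : Subgroup ↥Y).map Y.subtype = R₀ from Subgroup.map_subgroupOf_eq_of_le inf_le_right] at hfr
  have hNne : N ≠ ⊤ := fun h0 => hhQ (CfsgLib.Core.le_pCore (Subgroup.normalizer_eq_top_iff.mp h0)
    (P.2.to_le inf_le_left) (Subgroup.mem_inf.mpr ⟨hhP, Subgroup.subset_normalClosure rfl⟩ : h ∈ R₀))
  have hPN : (P : Subgroup G) ≤ N := fun s hs => Subgroup.mem_normalizer_fintype fun r hr =>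
    Subgroup.mem_inf.mpr ⟨mul_mem (mul_mem hs hr.1) (inv_mem hs), hYn.conj_mem r hr.2 s⟩
  have hQN : Q ≤ N := hQP.trans hPN
  have hQcore : Q.subgroupOf N ≤ Cfsg.pCore p ↥N :=
    CfsgLib.Core.le_pCore inferInstance (CfsgLib.Core.isPGroup_pCore p).comap_subtype
  have hcN : Subgroup.centralizer ((Cfsg.pCore p ↥N : Subgroup ↥N) : Set ↥N) ≤ Cfsg.pCore p ↥N := fun c hc' =>
    hQcore (hc (Subgroup.mem_centralizer_iff.mpr fun q hq =>
      congrArg Subtype.val (Subgroup.mem_centralizer_iff.mp hc' ⟨q, hQN hq⟩ (hQcore hq))))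
  -- the first step inside `N`
  obtain ⟨y, hy, m, hm, rfl⟩ := Subgroup.mem_sup_of_normal_left.mp
    ((sup_comm _ _).trans hfr ▸ Subgroup.mem_top g : g ∈ Y ⊔ N)
  set PY := (P : Subgroup G) ⊔ Y
  set R' := cmap m R
  have hR'N : R' ≤ N := by
    rintro _ ⟨r, hr, rfl⟩
    exact mul_mem (mul_mem hm (hPN (hR hr))) (inv_mem hm)
  have hR'PY : R' ≤ PY := by
    rintro _ ⟨r, hr, rfl⟩
    have h1 : y * m * r * (y * m)⁻¹ ∈ (P : Subgroup G) := hgR ⟨r, hr, rfl⟩
    have hyPY : y ∈ PY := Subgroup.mem_sup_right hy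
    show m * r * m⁻¹ ∈ PY
    rw [show m * r * m⁻¹ = y⁻¹ * (y * m * r * (y * m)⁻¹) * y by group]
    exact mul_mem (mul_mem (inv_mem hyPY) (Subgroup.mem_sup_left h1)) hyPY
  set X := PY ⊓ N
  have hPX : (P : Subgroup G) ≤ X := le_inf le_sup_left hPN
  obtain ⟨U, hU⟩ := (((P.2.to_le hR).map (MulAut.conj m).toMonoidHom).comap_subtype (K := X)).exists_le_sylow
  obtain ⟨c, hc'⟩ := MulAction.exists_smul_eq ↥X U (P.subtype hPX)
  obtain ⟨s, hs, k, hk, hsk⟩ := Subgroup.mem_sup_of_normal_right.mp c.2.1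
  have hkN : k ∈ N := by
    have : k = s⁻¹ * (c : G) := by rw [← hsk, inv_mul_cancel_left]
    rw [this]; exact mul_mem (inv_mem (hPN hs)) c.2.2
  have hkR : cmap k R' ≤ (P : Subgroup G) := by
    rintro _ ⟨r, hr, rfl⟩
    have h1 : c * ⟨r, Subgroup.mem_inf.mpr ⟨hR'PY hr, hR'N hr⟩⟩ * c⁻¹ ∈ ((c • U : Sylow p ↥X) : Subgroup ↥X) := by
      rw [Sylow.coe_subgroup_smul]
      exact ⟨_, hU hr, rfl⟩
    rw [hc'] at h1
    have h3 : s⁻¹ * ((c : G) * r * (c : G)⁻¹) * s ∈ (P : Subgroup G) :=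
      mul_mem (mul_mem (inv_mem hs) h1) hs
    show k * r * k⁻¹ ∈ _
    rw [← hsk] at h3
    simpa [mul_assoc] using h3
  have hkm : cmap (k * m) R ≤ (P : Subgroup G) := by
    rw [cmap, ← map_conj_mul]; exact hkR
  have hback : cmap (y * k⁻¹) (cmap (k * m) R) ≤ (P : Subgroup G) := by
    rw [cmap, cmap, map_conj_mul, show y * k⁻¹ * (k * m) = y * m by group]
    exact hgR
  rw [show y * m = (y * k⁻¹) * (k * m) by group]
  refine hcomp R (k * m) (y * k⁻¹) hR hkm hback ?_ ?_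
  · -- inside `N`
    let PN : Sylow p ↥N := P.subtype hPN
    have hmap : ∀ (u : ↥N) (R₁ : Subgroup ↥N), (cmap u R₁).map N.subtype = cmap (u : G) (R₁.map N.subtype) := by
      intro u R₁
      rw [cmap, cmap, Subgroup.map_map, Subgroup.map_map]
      rfl
    have hleP : ∀ R₁ : Subgroup ↥N, R₁ ≤ (PN : Subgroup ↥N) → R₁.map N.subtype ≤ (P : Subgroup G) := fun R₁ h₁ =>
      (Subgroup.map_mono h₁).trans (Subgroup.map_subgroupOf_eq_of_le hPN).le
    have hJN : (J 0 (PN : Subgroup ↥N)).map N.subtype = J 0 (P : Subgroup G) := by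
      rw [J_map 0 (injOn_of_injective N.subtype_injective _)]
      exact congrArg (J 0) (Subgroup.map_subgroupOf_eq_of_le hPN)
    have hmain := ih _ (hn ▸ lt_of_le_of_ne (Subgroup.card_le_card_group N) fun h0 =>
        hNne ((Subgroup.card_eq_iff_eq_top N).mp h0)) ↥N rfl PN hcN (fun R₁ u => M (R₁.map N.subtype) u) ?_ ?_ ?_
      (R.subgroupOf N) ⟨k * m, mul_mem hkN hm⟩ (fun r hr => hR hr)
      (by rintro _ ⟨r, hr, rfl⟩; exact hkm ⟨r, hr, rfl⟩)
    · dsimp only at hmain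
      rw [Subgroup.map_subgroupOf_eq_of_le (hR.trans hPN)] at hmain
      exact hmain
    · intro R₁ u v h₁ h₂ h₃ hu hv
      rw [hmap] at hv
      exact hcomp _ _ _ (hleP _ h₁) ((hmap u R₁).symm.le.trans (hleP _ h₂))
        (by rw [← hmap, ← hmap]; exact hleP _ h₃) hu hv
    · intro R₁ u h₁ h₂ hu
      exact hcent _ _ (hleP _ h₁) ((hmap u R₁).symm.le.trans (hleP _ h₂)) fun x hx hxc =>
        congrArg Subtype.val (hu ⟨x, hPN hx⟩ hx fun s hs => Subtype.ext (hxc s hs))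
    · intro R₁ u h₁ h₂ hu
      refine hnorm _ _ (hleP _ h₁) ((hmap u R₁).symm.le.trans (hleP _ h₂)) ?_
      rw [← hJN]
      exact Subgroup.le_normalizer_map N.subtype ⟨u, hu, rfl⟩
  · refine hcent _ _ hkm hback fun x hx hxc => ?_
    have hkv : k * x ^ p = x ^ p * k := hYfix k hk x (hxV x hx hxc)
    exact ((show Commute y (x ^ p) from hYfix y hy x (hxV x hx hxc)).mul_left
      ((show Commute k (x ^ p) from hkv).inv_left)).eq

end CfsgLib.Glauberman
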