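import Cfsg.Agent.Lib.Glauberman.GenLocal
import Cfsg.Agent.Lib.Fusion.KNormalizer

/-! Generation by the centralizer of `℧¹ Z(S)` and the normalizer of `J(S)`. (helper6) -/

set_option autoImplicit false
set_option linter.unusedSectionVars false
set_option linter.style.haveILetI false

namespace CfsgLib.Glauberman

open Cfsg Cfsg.FusionSystem CfsgLib.ThompsonNPC CfsgLib.Fusion

universe u

variable {Ω : Type u} [Group Ω] {S : Subgroup Ω} [Finite ↥S] {F : FusionSystem S} {p : ℕ} [Fact p.Prime]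

/-- The `p`-th powers of central elements. -/
def Vz (p : ℕ) (S : Subgroup Ω) : Subgroup Ω := Cfsg.powerClosure p 1 (S ⊓ Subgroup.centralizer (S : Set Ω))

theorem pow_mem_Vz {S : Subgroup Ω} {x : Ω} (hx : x ∈ S) (hc : ∀ s ∈ S, s * x = x * s) : x ^ p ∈ Vz p S :=
  Subgroup.subset_closure ⟨x, Subgroup.mem_inf.mpr ⟨hx, Subgroup.mem_centralizer_iff.mpr hc⟩, by rw [pow_one]⟩

theorem Vz_le_iff {S W : Subgroup Ω} : Vz p S ≤ W ↔ ∀ x ∈ S, (∀ s ∈ S, s * x = x * s) → x ^ p ∈ W := by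
  refine ⟨fun h x hx hc => h (pow_mem_Vz hx hc), fun h => (Subgroup.closure_le W).mpr ?_⟩
  rintro _ ⟨x, hx, rfl⟩
  rw [pow_one]
  exact h x (Subgroup.mem_inf.mp hx).1 (Subgroup.mem_centralizer_iff.mp (Subgroup.mem_inf.mp hx).2)

theorem Vz_le (S : Subgroup Ω) : Vz p S ≤ S := Vz_le_iff.mpr fun _ hx _ => S.pow_mem hx p

theorem Vz_central {S : Subgroup Ω} {v : Ω} (hv : v ∈ Vz p S) : ∀ s ∈ S, s * v = v * s := fun s hs => by
  have h := (Vz_le_iff (p := p) (W := Subgroup.centralizer ({s} : Set Ω))).mpr (fun x _ hc =>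
    Subgroup.mem_centralizer_iff.mpr fun y hy => by
      rw [Set.mem_singleton_iff.mp hy]; exact ((show Commute s x from hc s hs).pow_right p).eq) hv
  exact Subgroup.mem_centralizer_iff.mp h s rfl

theorem centralizerIn_Vz (S : Subgroup Ω) : centralizerIn S (Vz p S) = S :=
  inf_eq_left.mpr fun s hs => Subgroup.mem_centralizer_iff.mpr fun _ hv => (Vz_central hv s hs).symm

theorem J_normalized (T : Subgroup Ω) : T ≤ Subgroup.normalizer (J 0 T : Set Ω) :=
  Subgroup.le_normalizer.trans (normalizer_le_normalizer_J 0 T)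

/-- The part of a system with values in a subgroup. -/
def restrictSys (E : FusionSystem S) (T₁ : Subgroup Ω) (hT : T₁ ≤ S) : FusionSystem T₁ where
  Hom P := {φ | φ ∈ E.Hom P ∧ P ≤ T₁ ∧ ∀ x, φ x ∈ T₁}
  le_of_mem h := h.2
  injective_of_mem h := E.injective_of_mem h.1
  conj_mem hP hg := ⟨E.conj_mem (hP.trans hT) (hT hg), hP,
    fun x => T₁.mul_mem (T₁.mul_mem hg (hP x.2)) (T₁.inv_mem hg)⟩
  comp_mem hφ hψ h := ⟨E.comp_mem hφ.1 hψ.1 h, hφ.2.1, fun _ => hψ.2.2 _⟩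
  inv_mem {P φ} h := by
    obtain ⟨ψ, hψ, hψe⟩ := E.inv_mem h.1
    refine ⟨ψ, ⟨hψ, ?_, ?_⟩, hψe⟩
    · rintro _ ⟨x, rfl⟩; exact h.2.2 x
    · rintro ⟨_, x, rfl⟩; rw [hψe]; exact h.2.1 x.2

/-- The maps of the centralizer of `℧¹ Z(S)` lie in `E`. -/
def CentIn (p : ℕ) (F : FusionSystem S) (E : FusionSystem S) : Prop :=
  ∀ (P : Subgroup Ω) (φ : ↥P →* Ω), φ ∈ F.Hom P →
    (∃ ψ ∈ F.Hom (P ⊔ Vz p S), (∀ x : P, ψ (Subgroup.inclusion le_sup_left x) = φ x) ∧
      ∀ x : ↥(Vz p S), ψ (Subgroup.inclusion le_sup_right x) = x) → φ ∈ E.Hom P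

/-- The maps of the normalizer of `J(S)` lie in `E`. -/
def NormIn (F : FusionSystem S) (E : FusionSystem S) : Prop :=
  (normalizerSystem F (J 0 S) (J_le 0 S)).IsSubsystemOf E

theorem centIn_transfer {T₁ : Subgroup Ω} {F₁ : FusionSystem T₁} {E : FusionSystem S} (hsub : F₁.IsSubsystemOf F)
    (hT : T₁ ≤ S) (hZ : Vz p S ≤ Vz p T₁) (h : CentIn p F E) : CentIn p F₁ (restrictSys E T₁ hT) := by
  intro P φ hφ hex
  obtain ⟨ψ, hψ, hψP, hψV⟩ := hex
  refine ⟨h P φ (hsub _ hφ) ⟨ψ.comp (Subgroup.inclusion (sup_le_sup_left hZ P)),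
    restrict_mem (hsub _ hψ) _, fun x => hψP x, fun x => hψV ⟨x, hZ x.2⟩⟩, (F₁.le_of_mem hφ).1, (F₁.le_of_mem hφ).2⟩

theorem normIn_transfer {T₁ : Subgroup Ω} {F₁ : FusionSystem T₁} {E : FusionSystem S} (hsub : F₁.IsSubsystemOf F)
    (hT : T₁ ≤ S) (heq : T₁ = S) (h : NormIn F E) : NormIn F₁ (restrictSys E T₁ hT) := by
  subst heq
  intro P φ hφ
  obtain ⟨hφF, hP, hv, ψ, hψ, hψP, hψJ⟩ := hφ
  exact ⟨h P ⟨hsub _ hφF, hP, hv, ψ, hsub _ hψ, hψP, hψJ⟩, (F₁.le_of_mem hφF).1, (F₁.le_of_mem hφF).2⟩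

/-- **Generation**: a saturated system lies in every system containing the maps of `C(℧¹ Z(S))` and `N(J(S))`. -/
theorem le_of_centIn_normIn : ∀ (n : ℕ) {Ω : Type u} [Group Ω] {S : Subgroup Ω} [Finite ↥S] (F : FusionSystem S),
    Nat.card ↥S = n → IsPGroup p ↥S → F.IsSaturated p → ∀ E : FusionSystem S, CentIn p F E → NormIn F E → F ≤ E := by
  intro n
  induction n using Nat.strong_induction_on with
  | _ n ihn =>
  intro Ω _ S _ F hn hS hF
  suffices key : ∀ (m : ℕ) (T : Subgroup Ω) (hT : T = S) [Finite ↥T] (F : FusionSystem T), autSum F = m →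
      F.IsSaturated p → ∀ E : FusionSystem T, CentIn p F E → NormIn F E → F ≤ E from key _ S rfl F rfl hF
  clear hF F
  intro m
  induction m using Nat.strong_induction_on with
  | _ m ihm =>
  intro T hT₀ _ F hm hF E hC hN
  subst hT₀
  rcases eq_or_ne T ⊥ with hbot | hTne
  · intro P φ hφ
    refine conj_mem_of_eq E (le_S hφ) (one_mem T) fun x => ?_
    have hb : ∀ y ∈ T, y = 1 := fun y hy => by rw [hbot] at hy; exact Subgroup.mem_bot.mp hy
    rw [hb _ (apply_mem_S hφ x), hb _ (le_S hφ x.2)]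
    group
  -- smaller systems on the same group
  have hsmall : ∀ (T₁ : Subgroup Ω) (hT₁ : T₁ ≤ T) (F₁ : FusionSystem T₁), T₁ = T → F₁.IsSaturated p →
      F₁.IsSubsystemOf F → (¬ ∀ P, F.Hom P ⊆ F₁.Hom P) → F₁.IsSubsystemOf E := by
    intro T₁ hT₁ F₁ heq hs hsub hne P φ hφ
    haveI := finite_of_le hT₁
    exact (ihm _ (hm ▸ autSum_lt hS hF heq F₁ hsub hne) T₁ heq F₁ rfl hs (restrictSys E T₁ hT₁)
      (centIn_transfer hsub hT₁ (by rw [heq]) hC) (normIn_transfer hsub hT₁ heq hN) P hφ).1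
  have hproper : ∀ (U : Subgroup Ω) (hU : U ≤ T), T ≤ Subgroup.normalizer (U : Set Ω) → ¬ F.IsNormal U →
      (normalizerSystem F U hU).IsSubsystemOf E := by
    intro U hU hn' hnn
    have hfn := fullyNormalized_of_normal (F := F) hU hn'
    have heq : normalizerIn T U = T := inf_eq_left.mpr hn'
    exact hsmall _ inf_le_left _ heq (normalizerSystem_saturated p hS hF hfn _ (normalizerSystem_spec hU))
      (normalizerSystem_subsystem _ (normalizerSystem_spec hU))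
      fun h => hnn (isNormal_of_normalizerSystem_ge hU _ (normalizerSystem_spec hU) h)
  have hJne : ∀ (T' : Subgroup Ω), T' ≤ T → T' ≠ ⊥ → J 0 T' ≠ ⊥ := fun T' hT' hne => by
    haveI := finite_of_le hT'
    rw [← ind_JW]
    exact ind_ne_bot JW (JW_ne_bot (p := p)) T' (hS.to_le hT') hne
  have hJchar : ∀ (T' : Subgroup Ω), T' ≤ T → ((J 0 T').subgroupOf T').Characteristic := fun T' hT' => by
    haveI := finite_of_le hT'
    rw [← ind_JW]
    exact ind_characteristic (p := p) JW (fun Q R _ _ _ _ φ => JW_map Q R φ) T' (hS.to_le hT')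
  rcases eq_or_ne F.core ⊥ with hcore | hcore
  · refine le_of_functor hS hF E (fun T' => J 0 T') (fun T' _ => J_le 0 T') hJne hJchar ?_ ?_
    · intro U hU hUne heq
      exact hproper U hU.1 (heq.ge.trans inf_le_right) fun h => hUne (le_bot_iff.mp (hcore ▸ le_core h))
    · intro U hU hUne hlt hred
      have hsub := normalizerSystem_subsystem (F := F) _ (normalizerSystem_spec hU.1)
      haveI : Finite ↥(normalizerIn T U) := finite_of_le inf_le_left
      haveI : Finite ↥(T ⊓ Subgroup.normalizer (U : Set Ω)) := finite_of_le inf_le_left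
      have hzT : Vz p T ≤ Vz p (normalizerIn T U) := Vz_le_iff.mpr fun x hx hc => by
        refine pow_mem_Vz ⟨hx, Subgroup.centralizer_le_normalizer _ (Subgroup.mem_centralizer_iff.mpr
          fun u hu => hc u (hU.1 hu))⟩ fun s hs => hc s hs.1
      intro P φ hφ
      refine (ihn (Nat.card ↥(normalizerIn T U)) (hn ▸ lt_of_le_of_ne (Subgroup.card_le_of_le inf_le_left)
        fun h => hlt.ne (Subgroup.eq_of_le_of_card_ge inf_le_left h.ge)) (normalizerSystem F U hU.1) rfl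
        (hS.to_le inf_le_left) (normalizerSystem_saturated p hS hF hU _ (normalizerSystem_spec hU.1))
        (restrictSys E (normalizerIn T U) inf_le_left) (centIn_transfer hsub inf_le_left hzT hC) ?_ P hφ).1
      intro Q ψ hψ
      exact ⟨hred Q hψ, ((normalizerSystem F U hU.1).le_of_mem hψ.1).1,
        ((normalizerSystem F U hU.1).le_of_mem hψ.1).2⟩
  set Q := F.core with hQdef
  have hQn : F.IsNormal Q := isNormal_core F
  have hQsc := isNormal_stronglyClosed hQn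
  have hQN : T ≤ Subgroup.normalizer (Q : Set Ω) := StronglyClosed.normal hQsc
  set V := Vz p T with hVdef
  have hV : V ≤ T := Vz_le T
  by_cases hCQ : centralizerIn T Q ≤ Q
  · -- constrained
    have hcon : F.IsConstrained p := ⟨hF, Q, hQn, hQn.1, fun R hR => by
      obtain ⟨ψ, hψ, rfl⟩ := hR
      rw [show ψ.range = Q from sc_map_eq hQsc le_rfl hψ]
      exact hCQ⟩
    obtain ⟨L, _, ι, hL⟩ := CfsgLib.Model.exists_model p hS hcon
    obtain ⟨hfin, hr, ⟨T', hT'⟩, hc⟩ := id hL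
    haveI := hfin
    intro P φ hφ
    let M : Subgroup L → L → Prop := fun R g => ∀ (R₀ : Subgroup Ω) (hR₀ : R₀ ≤ T) (φ : ↥R₀ →* Ω) (hv : ∀ x, φ x ∈ T),
      R = (R₀.subgroupOf T).map ι → (∀ x : ↥R₀, ι ⟨φ x, hv x⟩ = g * ι ⟨x, hR₀ x.2⟩ * g⁻¹) → φ ∈ E.Hom R₀
    have himg : ∀ (R₀ : Subgroup Ω), (R₀.subgroupOf T).map ι ≤ (T' : Subgroup L) := fun R₀ =>
      hT' ▸ Subgroup.map_le_range _ _
    have hM : ∀ R g, R ≤ (T' : Subgroup L) → cmap g R ≤ (T' : Subgroup L) → M R g := by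
      refine fusion_induction _ L rfl T' hc M ?_ ?_ ?_
      · intro R g h hR hgR hhR h1 h2 R₀ hR₀ φ hv hRe he
        have hgv : ∀ x : ↥R₀, g * ι ⟨x, hR₀ x.2⟩ * g⁻¹ ∈ ι.range := fun x =>
          hT' ▸ hgR ⟨_, hRe ▸ ⟨⟨x, hR₀ x.2⟩, x.2, rfl⟩, rfl⟩
        obtain ⟨φ₁, hφ₁, hφ₁v, hφ₁e⟩ := exists_pullback hr hR₀ g hgv
        have hR₁T : φ₁.range ≤ T := range_le_S hφ₁
        have hcm : cmap g R = (φ₁.range.subgroupOf T).map ι := by
          ext w
          constructor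
          · rintro ⟨r, hr', rfl⟩
            rw [hRe] at hr'
            obtain ⟨⟨x, hxT⟩, hx, rfl⟩ := hr'
            exact ⟨⟨φ₁ ⟨x, hx⟩, hφ₁v _⟩, ⟨⟨x, hx⟩, rfl⟩, hφ₁e ⟨x, hx⟩⟩
          · rintro ⟨⟨v, hvT⟩, ⟨x, hx⟩, rfl⟩
            refine ⟨ι ⟨x, hR₀ x.2⟩, hRe ▸ ⟨⟨x, hR₀ x.2⟩, x.2, rfl⟩, ?_⟩
            exact (hφ₁e x).symm.trans (congrArg ι (Subtype.ext hx))
        have hhv : ∀ y : ↥φ₁.range, h * ι ⟨y, hR₁T y.2⟩ * h⁻¹ ∈ ι.range := fun y =>
          hT' ▸ hhR ⟨_, hcm ▸ ⟨⟨y, hR₁T y.2⟩, y.2, rfl⟩, rfl⟩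
        obtain ⟨φ₂, hφ₂, hφ₂v, hφ₂e⟩ := exists_pullback hr hR₁T h hhv
        refine comp_mem_of_eq (h1 R₀ hR₀ φ₁ hφ₁v hRe hφ₁e) (h2 _ hR₁T φ₂ hφ₂v hcm hφ₂e) (fun x => ⟨x, rfl⟩) fun x => ?_
        have h3 : (⟨φ x, hv x⟩ : ↥T) = ⟨φ₂ ⟨φ₁ x, ⟨x, rfl⟩⟩, hφ₂v _⟩ := hr.1 (by
          rw [he, hφ₂e, hφ₁e]; group)
        exact congrArg Subtype.val h3
      · intro R g hR hgR hg R₀ hR₀ φ hv hRe he
        have hsup : R₀ ⊔ V ≤ T := sup_le hR₀ hV
        have hfix : ∀ (x : Ω) (hx : x ∈ T), (∀ s ∈ T, s * x = x * s) → ∀ w : ↥T, (w : Ω) = x ^ p →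
            g * ι w * g⁻¹ = ι w := fun x hx hxc w hw => by
          rw [show w = ⟨x, hx⟩ ^ p from Subtype.ext hw, map_pow, hg _ (hT' ▸ ⟨_, rfl⟩) (fun s hs => by
            rw [hT'] at hs
            obtain ⟨s, rfl⟩ := hs
            rw [← map_mul, ← map_mul]
            exact congrArg ι (Subtype.ext (hxc s s.2))), mul_inv_cancel_right]
        have hle : R₀ ⊔ V ≤ ((ι.range.comap (MulAut.conj g).toMonoidHom).comap ι).map T.subtype :=
          sup_le (fun x hx => ⟨⟨x, hR₀ hx⟩, hT' ▸ hgR ⟨_, hRe ▸ ⟨⟨x, hR₀ hx⟩, hx, rfl⟩, rfl⟩, rfl⟩)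
            (Vz_le_iff.mpr fun x hx hxc => ⟨⟨x ^ p, T.pow_mem hx p⟩, ⟨⟨x ^ p, T.pow_mem hx p⟩,
              (hfix x hx hxc _ rfl).symm⟩, rfl⟩)
        obtain ⟨ψ, hψ, hψv, hψe⟩ := exists_pullback hr hsup g fun v => by
          obtain ⟨z, hz, hze⟩ := hle v.2
          rw [show (⟨(v : Ω), hsup v.2⟩ : ↥T) = z from Subtype.ext hze.symm]
          exact hz
        have hφF : φ ∈ F.Hom R₀ := (hr.2 R₀ hR₀ φ hv).mpr ⟨g, he⟩
        refine hC R₀ φ hφF ⟨ψ, hψ, fun x => ?_, fun v => ?_⟩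
        · have h3 : (⟨ψ (Subgroup.inclusion le_sup_left x), hψv _⟩ : ↥T) = ⟨φ x, hv x⟩ := hr.1 (by rw [hψe, he]; rfl)
          exact congrArg Subtype.val h3
        · have hmem : (v : Ω) ∈ ((ψ.comp (Subgroup.inclusion le_sup_right : ↥V →* ↥(R₀ ⊔ V))).eqLocus V.subtype).map V.subtype := by
            refine (Vz_le_iff (p := p) (W := _)).mpr (fun x hx hxc => ?_) v.2
            refine ⟨⟨x ^ p, pow_mem_Vz hx hxc⟩, ?_, rfl⟩
            show ψ _ = x ^ p
            have h3 : (⟨ψ (Subgroup.inclusion le_sup_right (⟨x ^ p, pow_mem_Vz hx hxc⟩ : ↥V)), hψv _⟩ : ↥T) =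
                ⟨x ^ p, T.pow_mem hx p⟩ := hr.1 ((hψe _).trans ((hfix x hx hxc _ rfl).trans (congrArg ι (Subtype.ext rfl))))
            exact congrArg Subtype.val h3
          obtain ⟨w, hw, hwe⟩ := hmem
          rw [show v = w from Subtype.ext hwe.symm]
          exact hw
      · intro R g hR hgR hg R₀ hR₀ φ hv hRe he
        have hJT : J 0 T ≤ T := J_le 0 T
        have hJL : ∀ w : ↥T, ι w ∈ J 0 (T' : Subgroup L) ↔ (w : Ω) ∈ J 0 T := fun w => by
          have := ind_model (p := p) JW (fun Q R _ _ _ _ φ => JW_map Q R φ) hS hr.1 (T' : Subgroup L) hT' w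
          rwa [ind_JW, ind_JW] at this
        have hsup : R₀ ⊔ J 0 T ≤ T := sup_le hR₀ hJT
        have hJg : ∀ w : ↥T, (w : Ω) ∈ J 0 T → g * ι w * g⁻¹ ∈ J 0 (T' : Subgroup L) := fun w hw =>
          (Subgroup.mem_normalizer_iff.mp hg _).mp ((hJL w).mpr hw)
        have hle : R₀ ⊔ J 0 T ≤ ((ι.range.comap (MulAut.conj g).toMonoidHom).comap ι).map T.subtype :=
          sup_le (fun x hx => ⟨⟨x, hR₀ hx⟩, hT' ▸ hgR ⟨_, hRe ▸ ⟨⟨x, hR₀ hx⟩, hx, rfl⟩, rfl⟩, rfl⟩)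
            fun w hw => ⟨⟨w, hJT hw⟩, hT'.le (J_le 0 _ (hJg ⟨w, hJT hw⟩ hw)), rfl⟩
        obtain ⟨ψ, hψ, hψv, hψe⟩ := exists_pullback hr hsup g fun v => by
          obtain ⟨z, hz, hze⟩ := hle v.2
          rw [show (⟨(v : Ω), hsup v.2⟩ : ↥T) = z from Subtype.ext hze.symm]
          exact hz
        have hφF : φ ∈ F.Hom R₀ := (hr.2 R₀ hR₀ φ hv).mpr ⟨g, he⟩
        have hNT : normalizerIn T (J 0 T) = T := inf_eq_left.mpr (J_normalized T)
        refine hN R₀ ⟨hφF, hR₀.trans hNT.ge, fun x => hNT.ge (hv x), ψ, hψ, fun x => ?_, ?_⟩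
        · have h3 : (⟨ψ (Subgroup.inclusion le_sup_left x), hψv _⟩ : ↥T) = ⟨φ x, hv x⟩ := hr.1 (by rw [hψe, he]; rfl)
          exact congrArg Subtype.val h3
        · haveI := finite_of_le hJT
          rw [map_eq_iff le_sup_right]
          have hin : ∀ w : ↥(J 0 T), ψ (Subgroup.inclusion le_sup_right w) ∈ J 0 T := fun w => by
            refine (hJL ⟨_, hψv _⟩).mp ?_
            rw [hψe]
            exact hJg ⟨w, hJT w.2⟩ w.2
          refine ⟨hin, fun y hy => ?_⟩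
          let k : ↥(J 0 T) → ↥(J 0 T) := fun w => ⟨_, hin w⟩
          obtain ⟨w, hw⟩ := (Finite.injective_iff_surjective.mp fun a b e =>
            Subgroup.inclusion_injective (le_sup_right : J 0 T ≤ R₀ ⊔ J 0 T)
              (F.injective_of_mem hψ (congrArg Subtype.val (e : k a = k b)))) ⟨y, hy⟩
          exact ⟨w, congrArg Subtype.val hw⟩
    obtain ⟨g, hg⟩ := (hr.2 P (le_S hφ) φ fun v => apply_mem_S hφ v).mp hφ
    refine hM _ g (himg P) ?_ P (le_S hφ) φ (fun v => apply_mem_S hφ v) rfl hg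
    rintro _ ⟨_, ⟨⟨x, hxT⟩, hx, rfl⟩, rfl⟩
    show g * ι ⟨x, hxT⟩ * g⁻¹ ∈ (T' : Subgroup L)
    rw [hT', ← hg ⟨x, hx⟩]
    exact ⟨_, rfl⟩
  -- not constrained
  set K := autInducedBy T Q
  haveI := finite_of_le hQn.1
  haveI := finite_aut_of_le hQn.1
  have hkT : kNorm T Q K = T := by
    refine le_antisymm (fun g hg => hg.1) fun g hg => ⟨hg, Q.normalizerMonoidHom ⟨g, hQN hg⟩, ?_, fun _ => rfl⟩
    exact (mem_autInducedBy _).mpr ⟨g, hg, fun _ => rfl⟩
  let inner : ∀ (D : Subgroup Ω), Q ≤ D → (↥D →* Ω) → Prop := fun D hD ψ =>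
    ∃ t ∈ T, ∀ q : ↥Q, ψ (Subgroup.inclusion hD q) = t * (q : Ω) * t⁻¹
  let M₁ : ∀ P : Subgroup Ω, (↥P →* Ω) → Prop := fun P φ =>
    ∃ ψ ∈ F.Hom (P ⊔ Q), (∀ x : P, ψ (Subgroup.inclusion le_sup_left x) = φ x) ∧ inner _ le_sup_right ψ
  let F₁ : FusionSystem T := subsystem F M₁
    (fun {P g} hP hg => ⟨conjHom (P ⊔ Q) g, F.conj_mem (sup_le hP hQn.1) hg, fun _ => rfl, g, hg, fun _ => rfl⟩)
    (fun {P R φ ψ} _ hφ _ hψ h => by
      obtain ⟨φ', hφ', eφ, s, hs, hsq⟩ := hφ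
      obtain ⟨ψ', hψ', eψ, t, ht, htq⟩ := hψ
      have hv : ∀ z, φ' z ∈ R ⊔ Q := apply_mem_of_sup φ'
        (fun x => le_sup_left (α := Subgroup Ω) (by rw [eφ x]; exact h x))
        (fun x => le_sup_right (α := Subgroup Ω) (by rw [hsq x]; exact conj_mem_of_normalizer (hQN hs) x.2))
      refine ⟨ψ'.comp (φ'.codRestrict (R ⊔ Q) hv), F.comp_mem hφ' hψ' hv, fun x => ?_, t * s, mul_mem ht hs, fun q => ?_⟩
      · exact (congrArg ψ' (Subtype.ext (eφ x))).trans (eψ ⟨φ x, h x⟩)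
      · refine ((congrArg ψ' (Subtype.ext (hsq q))).trans (htq ⟨_, conj_mem_of_normalizer (hQN hs) q.2⟩)).trans ?_
        show t * (s * (q : Ω) * s⁻¹) * t⁻¹ = _
        group)
    (fun {P φ} _ hφ ψ _ hψe => by
      obtain ⟨φ', hφ', eφ, s, hs, hsq⟩ := hφ
      have hr : φ'.range = φ.range ⊔ Q := by
        rw [range_eq_sup]
        congr 1
        · rw [map_eq_iff le_sup_left]
          exact ⟨fun x => ⟨x, (eφ x).symm⟩, fun y ⟨x, hx⟩ => ⟨x, (eφ x).trans hx⟩⟩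
        · rw [map_eq_iff le_sup_right]
          refine ⟨fun x => (hsq x).symm ▸ conj_mem_of_normalizer (hQN hs) x.2, fun y hy =>
            ⟨⟨s⁻¹ * y * s⁻¹⁻¹, conj_mem_of_normalizer (inv_mem (hQN hs)) hy⟩, ?_⟩⟩
          rw [hsq]
          show s * (s⁻¹ * y * s⁻¹⁻¹) * s⁻¹ = y
          group
      obtain ⟨ψ', hψ', -, hψ'e⟩ := exists_inverse hφ' hr
      refine ⟨ψ', hψ', ?_, s⁻¹, inv_mem hs, fun q => ?_⟩
      · rintro ⟨_, x, rfl⟩
        rw [hψe x]
        exact (congrArg ψ' (Subtype.ext (eφ x).symm)).trans (hψ'e (Subgroup.inclusion le_sup_left x) (hr ▸ ⟨_, rfl⟩))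
      · have hq' : s⁻¹ * (q : Ω) * s⁻¹⁻¹ ∈ Q := conj_mem_of_normalizer (inv_mem (hQN hs)) q.2
        refine (congrArg ψ' (Subtype.ext ?_)).trans (hψ'e (Subgroup.inclusion le_sup_right (⟨_, hq'⟩ : ↥Q)) (hr ▸ ⟨_, rfl⟩))
        refine ((hsq ⟨_, hq'⟩).trans ?_).symm
        show s * (s⁻¹ * (q : Ω) * s⁻¹⁻¹) * s⁻¹ = (q : Ω)
        group)
  by_cases hall : ∀ P, F.Hom P ⊆ F₁.Hom P
  · -- all maps are inner on `Q`: pass to the factor
    haveI : (Q.subgroupOf T).Normal := (Subgroup.normal_subgroupOf_iff_le_normalizer hQn.1).mpr hQN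
    have hE := factorSystem_spec (F := F) (θ := QuotientGroup.mk' (Q.subgroupOf T)) hQsc
      (fun s => by rw [QuotientGroup.mk'_apply, QuotientGroup.eq_one_iff, Subgroup.mem_subgroupOf])
      (S' := ⊤) (MonoidHom.range_eq_top.mpr (QuotientGroup.mk'_surjective _))
    set θ := QuotientGroup.mk' (Q.subgroupOf T)
    set F' := factorSystem F hQsc θ hE.2.1 hE.2.2.1
    haveI := finite_factor hE
    have hEp := isPGroup_factor hS hE
    have hinner : ∀ {D : Subgroup Ω} {ψ : ↥D →* Ω}, ψ ∈ F.Hom D → ∀ hD : Q ≤ D, inner D hD ψ := by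
      intro D ψ hψ hD
      obtain ⟨-, ψ₂, -, he, t, ht, htq⟩ := hall D hψ
      exact ⟨t, ht, fun q => (he (Subgroup.inclusion hD q)).symm.trans (htq q)⟩
    let M' : ∀ P' : Subgroup (↥T ⧸ Q.subgroupOf T), (↥P' →* ↥T ⧸ Q.subgroupOf T) → Prop := fun P' φ' =>
      ∃ φ ∈ F.Hom (preimageAlong θ P'), φ ∈ E.Hom (preimageAlong θ P') ∧ InducedAlong θ φ φ'
    let E' : FusionSystem (⊤ : Subgroup (↥T ⧸ Q.subgroupOf T)) := subsystem F' M'
      (fun {P g} _ _ => by
        obtain ⟨g, rfl⟩ := QuotientGroup.mk'_surjective _ g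
        have hle := preimageAlong_le θ P
        exact ⟨conjHom _ (g : Ω), F.conj_mem hle g.2, E.conj_mem hle g.2, hle,
          fun x => T.mul_mem (T.mul_mem g.2 (hle x.2)) (T.inv_mem g.2), fun x => (mem_preimageAlong.mp x.2).2,
          fun x => by
            show θ g * θ _ * (θ g)⁻¹ = θ _
            rw [← map_inv, ← map_mul, ← map_mul]; rfl⟩)
      (fun {P R φ ψ} _ hφ _ hψ h => by
        obtain ⟨φ₀, hφF, hφE, h1, h2, h3, h4⟩ := hφ
        obtain ⟨ψ₀, hψF, hψE, k1, k2, k3, k4⟩ := hψ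
        have hv : ∀ x, φ₀ x ∈ preimageAlong θ R := fun x => mem_preimageAlong.mpr ⟨h2 x, h4 x ▸ h _⟩
        refine ⟨ψ₀.comp (φ₀.codRestrict _ hv), F.comp_mem hφF hψF hv, E.comp_mem hφE hψE hv, h1, fun x => k2 _, h3, fun x => ?_⟩
        exact (congrArg ψ (Subtype.ext (h4 x))).trans (k4 ⟨φ₀ x, hv x⟩))
      (fun {P φ} hφ' hφ ψ _ hψe => by
        obtain ⟨φ₀, hφF, hφE, h1, h2, h3, h4⟩ := hφ
        have hr : φ₀.range = preimageAlong θ φ.range := by
          have hQP : Q ≤ preimageAlong θ P := le_preimageAlong hE P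
          refine le_antisymm ?_ fun y hy => ?_
          · rintro _ ⟨x, rfl⟩
            exact mem_preimageAlong.mpr ⟨h2 x, ⟨_, h4 x⟩⟩
          · obtain ⟨hyT, z, hz⟩ := mem_preimageAlong.mp hy
            obtain ⟨s, hs⟩ := QuotientGroup.mk'_surjective _ (z : ↥T ⧸ Q.subgroupOf T)
            have hs' : (s : Ω) ∈ preimageAlong θ P := mem_preimageAlong.mpr ⟨s.2, hs ▸ z.2⟩
            have hw : θ ⟨φ₀ ⟨s, hs'⟩, h2 _⟩ = θ ⟨y, hyT⟩ := by
              rw [← h4 ⟨s, hs'⟩, ← hz]; exact congrArg φ (Subtype.ext hs)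
            have hd : ((⟨φ₀ ⟨s, hs'⟩, h2 _⟩⁻¹ * ⟨y, hyT⟩ : ↥T) : Ω) ∈ Q :=
              (hE.2.1 _).mp (by rw [map_mul, map_inv, hw, inv_mul_cancel])
            have hrange := sc_map_eq hQsc hQP hφF
            obtain ⟨q, hq⟩ := hrange.ge hd
            refine ⟨⟨s, hs'⟩ * Subgroup.inclusion hQP q, ?_⟩
            rw [map_mul, show φ₀ (Subgroup.inclusion hQP q) = ((⟨φ₀ ⟨s, hs'⟩, h2 _⟩⁻¹ * ⟨y, hyT⟩ : ↥T) : Ω) from hq]
            exact mul_inv_cancel_left _ _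
        obtain ⟨χ, hχ, hχr, hχe⟩ := exists_inverse hφF hr
        obtain ⟨χE, hχE, -, hχEe⟩ := exists_inverse hφE hr
        have heq : χE = χ := MonoidHom.ext fun y => by
          obtain ⟨x, hx⟩ := hr.ge y.2
          rw [show y = ⟨φ₀ x, hr.le ⟨x, rfl⟩⟩ from Subtype.ext hx.symm, hχe, hχEe]
        refine ⟨χ, hχ, heq ▸ hχE, preimageAlong_le θ _, fun y => apply_mem_S hχ y,
          fun y => (mem_preimageAlong.mp y.2).2, fun y => ?_⟩
        obtain ⟨x, hx⟩ := hr.ge y.2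
        have hy : y = ⟨φ₀ x, hr.le ⟨x, rfl⟩⟩ := Subtype.ext hx.symm
        subst hy
        refine ((congrArg ψ (Subtype.ext (h4 x).symm)).trans (hψe _)).trans ?_
        exact congrArg θ (Subtype.ext (hχe x _).symm))
    have hFE' : F' ≤ E' := by
      refine ihn _ (hn ▸ card_factor_lt hE hcore) F' rfl hEp (factor_saturated p hS hF hQsc hE) E' ?_ ?_
      · rintro P' φ' hφ' ⟨ψ', hψ', hψ'P, hψ'V⟩
        set D := preimageAlong θ (P' ⊔ Vz p (⊤ : Subgroup (↥T ⧸ Q.subgroupOf T))) with hD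
        obtain ⟨ψ, hψ, hψe⟩ := exists_lift hE hψ'
        have hQD : Q ≤ D := le_preimageAlong hE _
        have hVim : ∀ v (hv : v ∈ V), θ ⟨v, hV hv⟩ ∈ Vz p (⊤ : Subgroup (↥T ⧸ Q.subgroupOf T)) := by
          have hle : V ≤ ((Vz p (⊤ : Subgroup (↥T ⧸ Q.subgroupOf T))).comap θ).map T.subtype :=
            Vz_le_iff.mpr fun x hx hxc => ⟨⟨x ^ p, T.pow_mem hx p⟩, by
              refine Subgroup.mem_comap.mpr ?_
              rw [show (⟨x ^ p, T.pow_mem hx p⟩ : ↥T) = ⟨x, hx⟩ ^ p from rfl, map_pow]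
              refine pow_mem_Vz (Subgroup.mem_top _) fun s _ => ?_
              obtain ⟨s, rfl⟩ := QuotientGroup.mk'_surjective _ s
              rw [← map_mul, ← map_mul]
              exact congrArg θ (Subtype.ext (hxc s s.2)), rfl⟩
          intro v hv
          obtain ⟨w, hw, hwe⟩ := hle hv
          rw [show (⟨v, hV hv⟩ : ↥T) = w from Subtype.ext hwe.symm]
          exact hw
        have hVD : V ≤ D := fun v hv => mem_preimageAlong.mpr ⟨hV hv, Subgroup.mem_sup_right (hVim v hv)⟩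
        obtain ⟨t, ht, htq⟩ := hinner hψ hQD
        set Q₂ := Q ⊔ V
        have hQ₂D : Q₂ ≤ D := sup_le hQD hVD
        have hQ₂T : Q₂ ≤ T := sup_le hQn.1 hV
        haveI := finite_of_le hQ₂T
        have hQ₂n : T ≤ Subgroup.normalizer (Q₂ : Set Ω) := fun s hs => mem_normalizer_sup' (hQN hs)
          (Subgroup.centralizer_le_normalizer _ (Subgroup.mem_centralizer_iff.mpr fun v hv => (Vz_central hv s hs).symm))
        have hψV : ∀ v (hv : v ∈ V), v⁻¹ * ψ ⟨v, hVD hv⟩ ∈ Q := fun v hv => by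
          obtain ⟨hx, hψx, hm', he⟩ := hψe ⟨v, hVD hv⟩
          have h2 : θ ⟨ψ ⟨v, hVD hv⟩, hψx⟩ = θ ⟨v, hx⟩ := by
            rw [← he]
            exact hψ'V ⟨_, hVim v hv⟩
          exact (hE.2.1 (⟨v, hx⟩⁻¹ * ⟨_, hψx⟩)).mp (by rw [map_mul, map_inv, h2, inv_mul_cancel])
        set χ : ↥Q₂ →* Ω := (MulAut.conj t⁻¹).toMonoidHom.comp (ψ.comp (Subgroup.inclusion hQ₂D))
        have hχ : χ ∈ F.Hom Q₂ :=
          comp_mem_of_eq (restrict_mem hψ hQ₂D) (F.conj_mem (le_refl T) (inv_mem ht)) (fun x => apply_mem_S hψ _) fun x => rfl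
        have hχQ : ∀ (q : Ω) (hq : q ∈ Q), χ ⟨q, Subgroup.mem_sup_left hq⟩ = q := fun q hq => by
          show t⁻¹ * ψ (Subgroup.inclusion hQD ⟨q, hq⟩) * t⁻¹⁻¹ = q
          rw [htq]
          show t⁻¹ * (t * q * t⁻¹) * t⁻¹⁻¹ = q
          group
        have hχV : ∀ v (hv : v ∈ V), v⁻¹ * χ ⟨v, Subgroup.mem_sup_right hv⟩ ∈ Q := fun v hv => by
          show v⁻¹ * (t⁻¹ * ψ ⟨v, hVD hv⟩ * t⁻¹⁻¹) ∈ Q
          have hcv := (show Commute t v from Vz_central hv t ht)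
          rw [show v⁻¹ * (t⁻¹ * ψ ⟨v, hVD hv⟩ * t⁻¹⁻¹) = t⁻¹ * (v⁻¹ * ψ ⟨v, hVD hv⟩) * t⁻¹⁻¹ by
            rw [← mul_assoc, ← mul_assoc, (hcv.inv_inv).eq.symm]; group]
          exact conj_mem_of_normalizer (inv_mem (hQN ht)) (hψV v hv)
        have hr : χ.range = Q₂ := by
          refine Subgroup.eq_of_le_of_card_ge ?_ (by rw [card_range hχ])
          rw [MonoidHom.range_eq_map]
          rintro _ ⟨x, -, rfl⟩
          have hx : (x : Ω) ∈ (Q₂.comap χ).map Q₂.subtype := by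
            refine (sup_le ?_ ?_ : Q₂ ≤ _) x.2
            · exact fun q hq => ⟨⟨q, Subgroup.mem_sup_left hq⟩, Subgroup.mem_comap.mpr (by rw [hχQ q hq]; exact Subgroup.mem_sup_left hq), rfl⟩
            · intro v hv
              refine ⟨⟨v, Subgroup.mem_sup_right hv⟩, ?_, rfl⟩
              show χ _ ∈ Q₂
              rw [show χ ⟨v, Subgroup.mem_sup_right hv⟩ = v * (v⁻¹ * χ ⟨v, Subgroup.mem_sup_right hv⟩) by group]
              exact mul_mem (Subgroup.mem_sup_right hv) (Subgroup.mem_sup_left (hχV v hv))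
          obtain ⟨y, hy, hye⟩ := hx
          rw [show x = y from Subtype.ext hye.symm]; exact hy
        set γ := isoOfMem hχ hr
        have hγ : γ ∈ F.autGroup Q₂ := (autGroup_carrier F hQ₂T _).mpr (by rw [isoOfMem_hom hχ hr]; exact hχ)
        have hγ1 : ∀ x : ↥Q₂, (x : Ω) ∈ Q → γ x = x := fun x hx => Subtype.ext ((isoOfMem_coe hχ hr x).trans (hχQ x hx))
        have hγ2 : ∀ x : ↥Q₂, ((x⁻¹ * γ x : ↥Q₂) : Ω) ∈ Q := by
          haveI : (Q.subgroupOf Q₂).Normal := (Subgroup.normal_subgroupOf_iff_le_normalizer le_sup_left).mpr (hQ₂T.trans hQN)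
          have hgen : (⊤ : Subgroup ↥Q₂) ≤ ((QuotientGroup.mk' (Q.subgroupOf Q₂)).comp γ.toMonoidHom).eqLocus
              (QuotientGroup.mk' (Q.subgroupOf Q₂)) := by
            intro y _
            have hy : (y : Ω) ∈ (((QuotientGroup.mk' (Q.subgroupOf Q₂)).comp γ.toMonoidHom).eqLocus
              (QuotientGroup.mk' (Q.subgroupOf Q₂))).map Q₂.subtype := by
              refine (sup_le ?_ ?_ : Q₂ ≤ _) y.2
              · exact fun q hq => ⟨⟨q, Subgroup.mem_sup_left hq⟩, congrArg (QuotientGroup.mk' _) (hγ1 _ hq), rfl⟩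
              · intro v hv
                refine ⟨⟨v, Subgroup.mem_sup_right hv⟩, ?_, rfl⟩
                refine (QuotientGroup.eq.mpr (Subgroup.mem_subgroupOf.mpr ?_)).symm
                rw [Subgroup.coe_mul, Subgroup.coe_inv]
                show v⁻¹ * ((γ ⟨v, Subgroup.mem_sup_right hv⟩ : ↥Q₂) : Ω) ∈ Q
                rw [isoOfMem_coe hχ hr]
                exact hχV v hv
            obtain ⟨y', hy', hye⟩ := hy
            rw [show y = y' from Subtype.ext hye.symm]; exact hy'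
          intro x
          exact Subgroup.mem_subgroupOf.mp (QuotientGroup.eq.mp (hgen (Subgroup.mem_top x)).symm)
        obtain ⟨g, hg, hge⟩ := exists_conj_of_stabilizes hS hF hQn (le_sup_left : Q ≤ Q₂) hQ₂T hQ₂n hγ hγ1 hγ2
        have hfixV : ∀ v (hv : v ∈ V), ψ ⟨v, hVD hv⟩ = v := fun v hv => by
          have h2 := hge ⟨v, Subgroup.mem_sup_right hv⟩
          rw [isoOfMem_coe hχ hr, Vz_central hv g hg, mul_inv_cancel_right] at h2
          have h3 : t⁻¹ * ψ ⟨v, hVD hv⟩ * t⁻¹⁻¹ = v := h2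
          calc ψ ⟨v, hVD hv⟩ = t * (t⁻¹ * ψ ⟨v, hVD hv⟩ * t⁻¹⁻¹) * t⁻¹ := by group
            _ = v := by rw [h3, Vz_central hv t ht, mul_inv_cancel_right]
        have hPD : preimageAlong θ P' ≤ D := fun x hx =>
          mem_preimageAlong.mpr ⟨(mem_preimageAlong.mp hx).1, Subgroup.mem_sup_left (mem_preimageAlong.mp hx).2⟩
        have hφ₀ := restrict_mem hψ hPD
        refine ⟨hφ', ψ.comp (Subgroup.inclusion hPD), hφ₀, hC _ _ hφ₀ ⟨ψ.comp (Subgroup.inclusion (sup_le hPD hVD)),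
          restrict_mem hψ _, fun _ => rfl, fun v => hfixV v v.2⟩, preimageAlong_le θ _, fun x => apply_mem_S hψ _,
          fun x => (mem_preimageAlong.mp x.2).2, fun x => ?_⟩
        obtain ⟨hx, hψx, hm', he⟩ := hψe ⟨x, hPD x.2⟩
        rw [← hψ'P]
        exact he
      · intro P' φ' hφ'
        by_cases htop : (⊤ : Subgroup (↥T ⧸ Q.subgroupOf T)) = ⊥
        · refine conj_mem_of_eq E' le_top (one_mem _) fun x => ?_
          have hb : ∀ v : ↥T ⧸ Q.subgroupOf T, v = 1 := fun v =>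
            Subgroup.mem_bot.mp (htop ▸ Subgroup.mem_top v)
          rw [hb (φ' x)]
          exact (hb _).symm
        set U' := J 0 (⊤ : Subgroup (↥T ⧸ Q.subgroupOf T))
        have hU'ne : U' ≠ ⊥ := by
          rw [show U' = ind JW (⊤ : Subgroup (↥T ⧸ Q.subgroupOf T)) from (ind_JW _).symm]
          exact ind_ne_bot JW (JW_ne_bot (p := p)) _ hEp htop
        have hUT := preimageAlong_le θ U'
        have hnU : T ≤ Subgroup.normalizer (preimageAlong θ U' : Set Ω) := fun v hv =>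
          (theta_normalizer hE hUT (le_preimageAlong hE U') ⟨v, hv⟩).mp (by
            rw [imageAlong_preimageAlong hE le_top]; exact J_normalized _ (Subgroup.mem_top _))
        have hUnn : ¬ F.IsNormal (preimageAlong θ U') := fun h => by
          apply hU'ne
          rw [← imageAlong_preimageAlong hE (le_top : U' ≤ ⊤)]
          refine (Subgroup.eq_bot_iff_forall _).mpr ?_
          rintro _ ⟨s, hs, rfl⟩
          exact (hE.2.1 s).mpr (le_core h hs)
        have hφF' := hφ'.1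
        obtain ⟨φ, hφ, hrel⟩ := exists_lift_normalizer hE hUT le_top hnU hφ'
        exact ⟨hφF', φ, hφ.1, hproper _ hUT hnU hUnn _ hφ, preimageAlong_le θ _, fun x => apply_mem_S hφ.1 x,
          fun x => (mem_preimageAlong.mp x.2).2, fun x => by
            obtain ⟨_, _, _, he⟩ := hrel x
            exact he⟩
    refine le_of_autGroup_centric_radical p hS hF E fun R hR hc hr α hα => ?_
    have hQR : Q ≤ R := normal_le_radical p hS hQn hc hr
    haveI := finite_of_le hR.1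
    haveI := finite_aut_of_le hR.1
    have hα' := (autGroup_carrier F hR.1 α).mp hα
    obtain ⟨ψ', hψ', hψe⟩ := exists_induced hE hQsc hQR hα'
    obtain ⟨-, φ, hφF, hφE, h1, h2, h3, h4⟩ := hFE' _ hψ'
    have hpre : preimageAlong θ (imageAlong θ R) = R := preimageAlong_imageAlong hE hR.1 hQR
    set φR := φ.comp (Subgroup.inclusion hpre.ge)
    have hφR := restrict_mem hφF hpre.ge
    have hmodQ : ∀ x : ↥R, ((α x : ↥R) : Ω)⁻¹ * φR x ∈ Q := fun x => by
      have e1 := h4 ⟨x, hpre.ge x.2⟩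
      have e2 := hψe ⟨x, hR.1 x.2⟩ x.2
      refine (hE.2.1 (⟨_, hR.1 (α x).2⟩⁻¹ * ⟨φR x, apply_mem_S hφR x⟩)).mp ?_
      rw [map_mul, map_inv, inv_mul_eq_one]
      exact e2.symm.trans e1
    have hφr : φR.range = R := by
      refine Subgroup.eq_of_le_of_card_ge ?_ (by rw [card_range hφR])
      rintro _ ⟨x, rfl⟩
      rw [show φR x = (α x : Ω) * (((α x : ↥R) : Ω)⁻¹ * φR x) by group]
      exact R.mul_mem (α x).2 (hQR (hmodQ x))
    set β := isoOfMem hφR hφr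
    have hβ : β ∈ F.autGroup R := (autGroup_carrier F hR.1 _).mpr (by rw [isoOfMem_hom hφR hφr]; exact hφR)
    have hβE : β ∈ E.autGroup R := (autGroup_carrier E hR.1 _).mpr (by
      rw [isoOfMem_hom hφR hφr]; exact restrict_mem hφE hpre.ge)
    let D : Subgroup ↥(F.autGroup R) :=
      { carrier := {a | ∀ x : ↥R, ((x⁻¹ * (a : MulAut ↥R) x : ↥R) : Ω) ∈ Q}
        one_mem' := fun x => by simp
        mul_mem' := by
          intro a b ha hb x
          show ((x⁻¹ * (a : MulAut ↥R) ((b : MulAut ↥R) x) : ↥R) : Ω) ∈ Q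
          rw [show x⁻¹ * (a : MulAut ↥R) ((b : MulAut ↥R) x) = (x⁻¹ * (b : MulAut ↥R) x) *
            (((b : MulAut ↥R) x)⁻¹ * (a : MulAut ↥R) ((b : MulAut ↥R) x)) by group, Subgroup.coe_mul]
          exact Q.mul_mem (hb x) (ha _)
        inv_mem' := by
          intro a ha x
          have h := ha ((a : MulAut ↥R)⁻¹ x)
          rw [MulAut.apply_inv_self] at h
          rw [show x⁻¹ * ((a⁻¹ : ↥(F.autGroup R)) : MulAut ↥R) x = ((((a : MulAut ↥R)⁻¹ x))⁻¹ * x)⁻¹ by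
            rw [Subgroup.coe_inv]; group, Subgroup.coe_inv]
          exact Q.inv_mem h }
    haveI hDn : D.Normal := ⟨fun a ha b x => by
      obtain ⟨b', -, hb'⟩ := isNormal_restrict hQn ((autGroup_carrier F hR.1 _).mp b.2)
      show ((x⁻¹ * (b : MulAut ↥R) ((a : MulAut ↥R) (((b⁻¹ : ↥(F.autGroup R)) : MulAut ↥R) x)) : ↥R) : Ω) ∈ Q
      set w := ((b⁻¹ : ↥(F.autGroup R)) : MulAut ↥R) x
      have hw : (b : MulAut ↥R) w = x := by
        show (b : MulAut ↥R) (((b⁻¹ : ↥(F.autGroup R)) : MulAut ↥R) x) = x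
        rw [Subgroup.coe_inv]; exact MulAut.apply_inv_self _ _ x
      rw [← hw, ← map_inv, ← map_mul]
      exact (congrArg (· ∈ Q) (hb' (w⁻¹ * (a : MulAut ↥R) w) (ha w))).mp (b' ⟨_, ha w⟩).2⟩
    have hDp : IsPGroup p ↥D := by
      obtain ⟨k, hk⟩ := IsPGroup.iff_card.mp hS
      intro a
      refine ⟨k + k, Subtype.ext (Subtype.ext ?_)⟩
      obtain ⟨t, ht, htq⟩ := hinner ((autGroup_carrier F hR.1 _).mp a.1.2) hQR
      have hts : t ^ p ^ k = 1 := by
        rw [← hk]; exact congrArg Subtype.val (pow_card_eq_one' (x := (⟨t, ht⟩ : ↥T)))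
      set a₀ : MulAut ↥R := ((a : ↥(F.autGroup R)) : MulAut ↥R)
      have hiter : ∀ (i : ℕ) (x : ↥R), (x : Ω) ∈ Q → ((((a₀ ^ i) x : ↥R)) : Ω) = t ^ i * x * (t ^ i)⁻¹ := by
        intro i
        induction i with
        | zero => intro x _; simp
        | succ i ih' =>
          intro x hx
          have hmem : ((a₀ x : ↥R) : Ω) ∈ Q := by
            rw [show ((a₀ x : ↥R) : Ω) = t * x * t⁻¹ from htq ⟨x, hx⟩]
            exact conj_mem_of_normalizer (hQN ht) hx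
          rw [pow_succ, MulAut.mul_apply, ih' _ hmem, show ((a₀ x : ↥R) : Ω) = t * x * t⁻¹ from htq ⟨x, hx⟩, pow_succ]
          group
      set b := a₀ ^ p ^ k
      have hbQ : ∀ x : ↥R, (x : Ω) ∈ Q → b x = x := fun x hx => Subtype.ext (by
        rw [hiter _ x hx, hts]; group)
      have hbD : ∀ x : ↥R, ((x⁻¹ * b x : ↥R) : Ω) ∈ Q := (D.pow_mem a.2 (p ^ k) :)
      have key : ∀ (i : ℕ) (x : ↥R), (b ^ i) x = x * (x⁻¹ * b x) ^ i := by
        intro i x
        induction i with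
        | zero => simp
        | succ i ih' =>
          rw [pow_succ' b, MulAut.mul_apply, ih', map_mul, map_pow, hbQ _ (hbD x), pow_succ' (x⁻¹ * b x), ← mul_assoc x,
            mul_inv_cancel_left]
      show a₀ ^ p ^ (k + k) = 1
      rw [pow_add, pow_mul]
      refine MulEquiv.ext fun x => ?_
      rw [key, MulAut.one_apply]
      refine mul_eq_left.mpr (Subtype.ext ?_)
      rw [Subgroup.coe_pow, ← hk]
      exact congrArg Subtype.val (pow_card_eq_one' (x := (⟨_, hQn.1 (hbD x)⟩ : ↥T)))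
    have hmemD : (⟨α⁻¹ * β, mul_mem (inv_mem hα) hβ⟩ : ↥(F.autGroup R)) ∈ D := fun x => by
      show ((x⁻¹ * α⁻¹ (β x) : ↥R) : Ω) ∈ Q
      obtain ⟨a', -, ha'⟩ := isNormal_restrict hQn ((autGroup_carrier F hR.1 _).mp (inv_mem hα))
      have hw : (((α x)⁻¹ * β x : ↥R) : Ω) ∈ Q := by
        rw [Subgroup.coe_mul, Subgroup.coe_inv, isoOfMem_coe hφR hφr]; exact hmodQ x
      have h5 := (congrArg (· ∈ Q) (ha' _ hw)).mp (a' ⟨_, hw⟩).2
      have h6 : α⁻¹ ((α x)⁻¹ * β x) = x⁻¹ * α⁻¹ (β x) := by rw [map_mul, map_inv, MulAut.inv_apply_self]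
      rw [← h6]
      exact h5
    have hinn : α⁻¹ * β ∈ Inn ↥R := by
      rw [← hr.2]
      exact ⟨_, CfsgLib.Core.le_pCore hDn hDp hmemD, rfl⟩
    have : α = β * (α⁻¹ * β)⁻¹ := by group
    rw [this]
    exact mul_mem hβE (inv_mem (inn_le_autGroup E hR.1 hinn))
  -- a proper part: Frattini
  have hF₁s : F₁.IsSaturated p := by
    have hfullK : IsFullyKNormalized F Q K := by
      refine ⟨hQn.1, fun R e he => ?_⟩
      rw [hkT]
      exact Subgroup.card_le_of_le fun g hg => hg.1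
    refine kNormalizer_saturated' p hS hF hfullK hkT.symm F₁ fun P φ => ⟨?_, ?_⟩
    · rintro ⟨hφ, ψ, hψ, he, t, ht, htq⟩
      exact ⟨hφ, le_S hφ, apply_mem_S hφ, ψ, hψ, he, Q.normalizerMonoidHom ⟨t, hQN ht⟩,
        (mem_autInducedBy _).mpr ⟨t, ht, fun _ => rfl⟩, fun q => htq q⟩
    · rintro ⟨hφ, -, -, ψ, hψ, he, k, hk, hkq⟩
      obtain ⟨t, ht, htq⟩ := (mem_autInducedBy _).mp hk
      exact ⟨hφ, ψ, hψ, he, t, ht, fun q => (hkq q).trans (htq q)⟩
  have hF₁E : F₁.IsSubsystemOf E := hsmall T le_rfl F₁ rfl hF₁s (fun P φ h => h.1) hall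
  set R₀ := Q ⊔ centralizerIn T Q
  have hR₀nn : ¬ F.IsNormal R₀ := fun h =>
    hCQ ((le_sup_right : centralizerIn T Q ≤ R₀).trans (le_core h))
  have hR₀T : R₀ ≤ T := sup_le hQn.1 inf_le_left
  have hCN : ∀ g ∈ T, ∀ c ∈ centralizerIn T Q, g * c * g⁻¹ ∈ centralizerIn T Q := fun g hg c hc =>
    ⟨T.mul_mem (T.mul_mem hg hc.1) (T.inv_mem hg),
      conj_mem_of_normalizer (normalizer_le_normalizer_centralizer' Q (hQN hg)) hc.2⟩
  haveI : Finite ↥(centralizerIn T Q) := finite_of_le inf_le_left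
  have hR₀N : T ≤ Subgroup.normalizer (R₀ : Set Ω) := fun v hv =>
    mem_normalizer_sup' (hQN hv) (Subgroup.mem_normalizer_fintype fun c hc => hCN v hv c hc)
  refine le_of_autGroup p hS hF E fun R hR hbig => ?_
  by_cases hcr : F.IsCentric R ∧ F.IsRadical p R
  swap
  · exact autGroup_le_of_not_centric_radical p hS hF E hR hcr hbig
  have hQR : Q ≤ R := normal_le_radical p hS hQn hcr.1 hcr.2
  haveI := finite_of_le hR.1
  haveI := finite_aut_of_le hR.1
  set A := F.autGroup R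
  let K₀ : Subgroup ↥A :=
    { carrier := {a | ∀ x : ↥R, (x : Ω) ∈ Q → (a : MulAut ↥R) x = x}
      one_mem' := fun x _ => rfl
      mul_mem' := fun {a b} ha hb x hx => by
        show (a : MulAut ↥R) ((b : MulAut ↥R) x) = x
        rw [hb x hx, ha x hx]
      inv_mem' := fun {a} ha x hx => (a : MulAut ↥R).injective
        ((MulAut.apply_inv_self _ (a : MulAut ↥R) x).trans (ha x hx).symm) }
  haveI hK₀n : K₀.Normal := ⟨fun a ha b x hx => by
    obtain ⟨β, -, hβ⟩ := isNormal_restrict hQn ((autGroup_carrier F hR.1 _).mp b⁻¹.2)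
    show (b : MulAut ↥R) ((a : MulAut ↥R) (((b⁻¹ : ↥A) : MulAut ↥R) x)) = x
    rw [ha (((b⁻¹ : ↥A) : MulAut ↥R) x) ((congrArg (· ∈ Q) (hβ x hx)).mp (β ⟨_, hx⟩).2), Subgroup.coe_inv]
    exact MulAut.apply_inv_self _ _ x⟩
  have hK₀E : ∀ a ∈ K₀, ((a : ↥A) : MulAut ↥R) ∈ E.autGroup R := fun a ha => by
    refine (autGroup_carrier E hR.1 _).mpr (hF₁E R ?_)
    have hψ := (autGroup_carrier F hR.1 _).mp a.2
    refine ⟨hψ, (R.subtype.comp (a : MulAut ↥R).toMonoidHom).comp (Subgroup.inclusion (sup_le le_rfl hQR)),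
      restrict_mem hψ _, fun _ => rfl, 1, one_mem T, fun q => ?_⟩
    show ((((a : MulAut ↥R) ⟨q, hQR q.2⟩ : ↥R)) : Ω) = _
    rw [ha ⟨q, hQR q.2⟩ q.2]
    group
  obtain ⟨-, TS, hTS⟩ := fullyNormalized_automized p hS hF hR
  set T₀ := (TS : Subgroup ↥A) ⊓ K₀
  have hidx : ¬ p ∣ T₀.relIndex K₀ :=
    sylow_inf_normal (H := ⊤) (by rw [Subgroup.relIndex_top_right]; exact TS.not_dvd_index) le_top le_top
      (by rw [Subgroup.normalizer_eq_top_iff.mpr inferInstance])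
  let TK : Sylow p ↥K₀ := ((TS.2.to_le inf_le_left : IsPGroup p ↥T₀).comap_subtype).toSylow hidx
  have hfr : Subgroup.normalizer (((TK : Subgroup ↥K₀).map K₀.subtype : Subgroup ↥A) : Set ↥A) ⊔ K₀ = ⊤ :=
    Sylow.normalizer_sup_eq_top TK
  rw [show (TK : Subgroup ↥K₀).map K₀.subtype = T₀ from Subgroup.map_subgroupOf_eq_of_le inf_le_right] at hfr
  have hnorm : ∀ γ ∈ Subgroup.normalizer (T₀ : Set ↥A), ((γ : ↥A) : MulAut ↥R) ∈ E.autGroup R := by
    intro γ hγ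
    set φ : ↥R →* Ω := R.subtype.comp (γ : MulAut ↥R).toMonoidHom
    have hφ : φ ∈ F.Hom R := (autGroup_carrier F hR.1 _).mp γ.2
    by_cases hCR : centralizerIn T Q ≤ R
    · have hR₀R : R₀ ≤ R := sup_le hQR hCR
      have hin : ∀ x : ↥R₀, φ (Subgroup.inclusion hR₀R x) ∈ R₀ := by
        intro x
        have hx : (x : Ω) ∈ ((R₀.comap φ).map R.subtype) := by
          refine (sup_le ?_ ?_ : R₀ ≤ _) x.2
          · intro q hq
            exact ⟨⟨q, hQR hq⟩, Subgroup.mem_sup_left ((sc_map_eq hQsc hQR hφ).le ⟨⟨q, hq⟩, rfl⟩), rfl⟩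
          · intro c hc
            refine ⟨⟨c, hCR hc⟩, Subgroup.mem_sup_right ⟨apply_mem_S hφ _, Subgroup.mem_centralizer_iff.mpr ?_⟩, rfl⟩
            intro q hq
            obtain ⟨q', hq'⟩ := (sc_map_eq hQsc hQR hφ).ge hq
            rw [← hq']
            show φ _ * φ _ = φ _ * φ _
            rw [← map_mul, ← map_mul]
            exact congrArg φ (Subtype.ext (Subgroup.mem_centralizer_iff.mp hc.2 q' q'.2))
        obtain ⟨y, hy, hye⟩ := hx
        rw [show Subgroup.inclusion hR₀R x = y from Subtype.ext hye.symm]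
        exact hy
      haveI := finite_of_le hR₀T
      have hNT : normalizerIn T R₀ = T := inf_eq_left.mpr hR₀N
      refine (autGroup_carrier E hR.1 _).mpr (hproper R₀ hR₀T hR₀N hR₀nn R
        ⟨hφ, hR.1.trans hNT.ge, fun x => hNT.ge (apply_mem_S hφ x), φ.comp (Subgroup.inclusion (sup_le le_rfl hR₀R)),
          restrict_mem hφ _, fun _ => rfl, ?_⟩)
      rw [map_eq_iff le_sup_right]
      refine ⟨hin, fun y hy => ?_⟩
      let k : ↥R₀ → ↥R₀ := fun w => ⟨_, hin w⟩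
      obtain ⟨w, hw⟩ := (Finite.injective_iff_surjective.mp fun a b e =>
        Subgroup.inclusion_injective hR₀R (F.injective_of_mem hφ (congrArg (fun z : ↥R₀ => (z : Ω)) (e : k a = k b)))) ⟨y, hy⟩
      exact ⟨w, congrArg Subtype.val hw⟩
    · have hr' : φ.range = R := by
        ext y
        exact ⟨fun ⟨x, hx⟩ => hx ▸ ((γ : MulAut ↥R) x).2, fun hy => ⟨(γ : MulAut ↥R).symm ⟨y, hy⟩, by simp [φ]⟩⟩
      set W := R ⊔ centralizerIn T Q
      have hW : W ≤ T := sup_le hR.1 inf_le_left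
      haveI := finite_of_le hW
      have hlt : R < W := lt_of_le_of_ne le_sup_left fun h => hCR (h ▸ le_sup_right)
      have hlt' := lt_normalizerIn p (hS.to_le hW) hlt
      obtain ⟨g, hg, hgR⟩ := SetLike.exists_of_lt hlt'
      have hRN : R ≤ Subgroup.normalizer ((centralizerIn T Q : Subgroup Ω) : Set Ω) := fun r hr₁ =>
        Subgroup.mem_normalizer_fintype fun c hc => hCN r (hR.1 hr₁) c hc
      obtain ⟨r, hr₁, c, hc, hrc⟩ : ∃ r ∈ R, ∃ c ∈ centralizerIn T Q, r * c = g := by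
        have h : g ∈ ((R ⊔ centralizerIn T Q : Subgroup Ω) : Set Ω) := hg.1
        rw [Subgroup.coe_mul_of_left_le_normalizer_right _ _ hRN] at h
        exact Set.mem_mul.mp h
      have hcN : c ∈ normalizerIn T R := by
        refine ⟨hc.1, ?_⟩
        rw [show c = r⁻¹ * g by rw [← hrc, inv_mul_cancel_left]]
        exact mul_mem (Subgroup.inv_mem _ (Subgroup.le_normalizer hr₁)) hg.2
      have hcR : c ∉ R := fun h => hgR (hrc ▸ R.mul_mem hr₁ h)
      have hcA : R.normalizerMonoidHom ⟨c, hcN.2⟩ ∈ autInducedBy T R := (mem_autInducedBy _).mpr ⟨c, hc.1, fun _ => rfl⟩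
      have hcT₀ : (⟨_, autInducedBy_le_autGroup F hR.1 hcA⟩ : ↥A) ∈ T₀ := by
        refine Subgroup.mem_inf.mpr ⟨by rw [hTS]; exact hcA, fun x hx => Subtype.ext ?_⟩
        show c * (x : Ω) * c⁻¹ = x
        rw [← Subgroup.mem_centralizer_iff.mp hc.2 x hx, mul_inv_cancel_right]
      have h2 := ((Subgroup.mem_normalizer_iff.mp hγ _).mp hcT₀).1
      rw [hTS] at h2
      obtain ⟨h, hh, hhe⟩ := (mem_autInducedBy _).mp h2
      have hext : c ∈ extender T R φ := by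
        refine mem_extender hcN hh fun x hx => ?_
        refine Eq.trans ?_ (hhe ((γ : MulAut ↥R) x))
        show ((γ : MulAut ↥R) ⟨c * x * c⁻¹, hx⟩ : Ω) =
          ((γ : MulAut ↥R) (R.normalizerMonoidHom ⟨c, hcN.2⟩ ((γ : MulAut ↥R)⁻¹ ((γ : MulAut ↥R) x))) : Ω)
        rw [MulAut.inv_apply_self]
        exact congrArg (fun y : ↥R => (((γ : MulAut ↥R) y : ↥R) : Ω)) (Subtype.ext rfl)
      obtain ⟨ψ, hψ, hψe⟩ := (fullyNormalized_receptive p hS hF hR).2 R φ hφ hr'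
      haveI : Finite ↥(extender T R φ) := finite_of_le ((extender_le T R φ).trans inf_le_left)
      have hlt2 : R < extender T R φ := lt_of_le_of_ne (le_extender hφ) fun h => hcR (h ▸ hext)
      have hψE := hbig _ (Set.Finite.card_lt_card (Set.toFinite _) hlt2) hψ
      exact (autGroup_carrier E hR.1 _).mpr (restrict_mem_of_eq hψE hlt2.le fun x => (hψe x x.2 _).symm)
  intro α hα
  obtain ⟨γ, hγ, k, hk, hgk⟩ := Subgroup.mem_sup_of_normal_right.mp (hfr.ge (Subgroup.mem_top (⟨α, hα⟩ : ↥A)))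
  rw [show α = ((γ : ↥A) : MulAut ↥R) * ((k : ↥A) : MulAut ↥R) from congrArg Subtype.val hgk.symm]
  exact mul_mem (hnorm γ hγ) (hK₀E k hk)

end CfsgLib.Glauberman
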